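import Cfsg.Agent.Lib.PermComp.Spor.J3.Tab
import Cfsg.Agent.Lib.FusionSimple2.Codes
import Cfsg.Agent.Lib.J3Fus.Data

/-!
# Kernel checks for the `2`-fusion system of the third Janko group

The elements of the Sylow subgroup are products of generators with exponents the bits of a number.
-/

set_option autoImplicit false
set_option maxRecDepth 100000

namespace Cfsg.Agent.Lib.J3Fus

open Cfsg.Agent.Lib.PermComp.Core Cfsg.Agent.Lib.PermComp.Spor.J3
open Cfsg.Agent.Lib.FusionSimple2.Codes

local notation "ap" => app 13 8191

/-- Kernel friendly `Nodup`. -/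
noncomputable def nodupN : List Nat → Bool :=
  fun l => List.rec true (fun a t ih => ifB (!(memN a t)) ih) l

theorem nodupN_spec {l : List Nat} (h : nodupN l = true) : l.Nodup := by
  induction l with
  | nil => exact List.nodup_nil
  | cons a t ih =>
    have h' : ifB (!(memN a t)) (nodupN t) = true := h
    rw [ifB_eq_true] at h'
    refine List.nodup_cons.2 ⟨?_, ih h'.2⟩
    intro hm
    rw [← memN_eq_true] at hm
    rw [hm] at h'
    exact Bool.noConfusion h'.1

/-- The points. -/
noncomputable def rng : List ℕ := List.range 6156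

/-- The image of a point under a product of generators with exponents the bits of `e`. -/
noncomputable def evE (gens : List ℕ) : ℕ → ℕ → ℕ :=
  List.rec (motive := fun _ => ℕ → ℕ → ℕ) (fun _ x => x)
    (fun a _ ih e x => force (ih (Nat.div e 2) x) fun y => Bool.rec y (ap a y) (Nat.beq (Nat.mod e 2) 1)) gens

/-- The image of a point under an element of the Sylow subgroup. -/
noncomputable def ev (e x : ℕ) : ℕ := evE sgens e x

/-- The image of a point under a word. -/
noncomputable def evalW (T : List ℕ) : List ℕ → ℕ → ℕ :=
  fun u => List.rec (motive := fun _ => ℕ → ℕ) (fun x => x)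
    (fun a _ ih x => force (ih x) fun y => ap (nthN T a) y) u

/-- The first three letters. -/
noncomputable def T3 : List ℕ := [nthN TABs 0, nthN TABs 1, binvc]

/-- All the letters. -/
noncomputable def T7 : List ℕ := [nthN TABs 0, nthN TABs 1, binvc, h0c, h1c, h0ic, h1ic]

theorem T7_eq : T7 = T3 ++ [h0c, h1c, h0ic, h1ic] := rfl

/-- A word in the letters. -/
noncomputable def lettersOK (k : ℕ) (w : List ℕ) : Bool := allL (fun a => Nat.blt a k) w

theorem chk_binv : allL (fun p => Nat.beq (ap binvc (ap (nthN TABs 1) p)) p) rng = true := by decide +kernel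

theorem chk_h0 : allL (fun p => Nat.beq (ap h0c p) (evalW T3 h0w p)) rng = true := by decide +kernel

theorem chk_h1 : allL (fun p => Nat.beq (ap h1c p) (evalW T3 h1w p)) rng = true := by decide +kernel

theorem chk_h0i : allL (fun p => Nat.beq (ap h0ic (ap h0c p)) p) rng = true := by decide +kernel

theorem chk_h1i : allL (fun p => Nat.beq (ap h1ic (ap h1c p)) p) rng = true := by decide +kernel

theorem chk_hl : ifB (lettersOK 3 h0w) (lettersOK 3 h1w) = true := by decide +kernel

theorem chk_words : ifB (lettersOK 7 zW) (ifB (lettersOK 7 y1W) (lettersOK 7 y2W)) = true := by decide +kernel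

theorem chk_z : allL (fun p => Nat.beq (ap zc p) (evalW T7 zW p)) rng = true := by decide +kernel

theorem chk_y1 : allL (fun p => Nat.beq (ap y1c p) (evalW T7 y1W p)) rng = true := by decide +kernel

theorem chk_y2 : allL (fun p => Nat.beq (ap y2c p) (evalW T7 y2W p)) rng = true := by decide +kernel

theorem chk_t : allL (fun p => Nat.beq (ap tc p) (ap y1c (ap y2c p))) rng = true := by decide +kernel

/-- The generators are conjugates of the central involution. -/
noncomputable def conjW (e : ℕ × List ℕ) : Bool :=
  ifB (lettersOK 7 e.2) (allL (fun p => Nat.beq (ap e.1 (evalW T7 e.2 p)) (evalW T7 e.2 (ap zc p))) rng)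

theorem chk_s : allL conjW (sgens.zip sW) = true := by decide +kernel

theorem chk_szip : (sgens.zip sW).map Prod.fst = sgens := rfl

/-- The generator is an involution. -/
noncomputable def invOK (a : ℕ) : Bool := allL (fun p => Nat.beq (ap a (ap a p)) p) rng

/-- Conjugation of the later generators by `a`. -/
noncomputable def rowOK (a : ℕ) (as r : List ℕ) : Bool :=
  ifB (Nat.beq as.length r.length) <|
  allL (fun b : ℕ × ℕ => ifB (Nat.blt b.2 (2 ^ as.length))
    (allL (fun p => Nat.beq (ap a (ap b.1 (ap a p))) (evE as b.2 p)) rng)) (as.zip r)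

/-- The chain of subgroups generated by the tails of the list. -/
noncomputable def chainC : List ℕ → List (List ℕ) → Bool
  | [], _ => true
  | _ :: _, [] => false
  | a :: as, r :: rs => ifB (invOK a) (ifB (rowOK a as r) (chainC as rs))

theorem chk_chain : chainC sgens cT = true := by decide +kernel

/-- The exponents. -/
noncomputable def rg128 : List ℕ := List.range 128

theorem chk_key : nodupN (rg128.map (fun e => ev e 0)) = true := by decide +kernel

theorem chk_cent : allL (fun e => orC (Nat.beq e 0) (orC (Nat.beq e 64)
    (anyL (fun b => neB (ev e (ap b 0)) (ap b (ev e 0))) sgens))) rg128 = true := by decide +kernel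

theorem chk_I : allL (fun e => orC (Nat.beq e 0) (orC (memN e II) (neB (ev e (ev e 0)) 0))) rg128 = true := by
  decide +kernel

/-- The relation `x y = c y x` at the regular point. -/
noncomputable def relP (c x y : ℕ) : Bool := Nat.beq (ev x (ev y 0)) (ev c (ev y (ev x 0)))

/-- The clique check. -/
noncomputable def cliqueOK : Bool :=
  allL (fun c => allL (fun x => allL (fun y => orC (!(relP c x y)) (allL (fun u =>
    orC (!(relP c x u)) (orC (!(relP c y u)) (ifB (memN (ev x 0) QK) (ifB (memN (ev y 0) QK) (memN (ev u 0) QK))))) II)) II) II) II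

theorem chk_clique : cliqueOK = true := by decide +kernel

/-- The image of a point under an element of `Q`. -/
noncomputable def evQ (l : List ℕ) : ℕ → ℕ → ℕ :=
  List.rec (motive := fun _ => ℕ → ℕ → ℕ) (fun _ x => x)
    (fun a _ ih e x => force (ih (Nat.div e 2) x) fun y => Bool.rec y (ev a y) (Nat.beq (Nat.mod e 2) 1)) l

theorem chk_QK : QK = (List.range 32).map (fun b => evQ QE b 0) := by decide +kernel

theorem chk_QE : allL (fun e => Nat.blt e 128) QE = true := by decide +kernel

theorem chk_sQ : allL (fun a => allL (fun q => memN (ap a (ev q (ap a 0))) QK) QE) sgens = true := by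
  decide +kernel

theorem chk_t3 : allL (fun p => Nat.beq (ap tc (ap tc (ap tc p))) p) rng = true := by decide +kernel

/-- The fifth power. -/
noncomputable def p5ok (c : ℕ) : Bool :=
  allL (fun p => Nat.beq (ap c (ap c (ap c (ap c (ap c p))))) p) rng

theorem chk_y5 : ifB (p5ok y1c) (p5ok y2c) = true := by decide +kernel

theorem chk_tS : allL (fun b : ℕ × ℕ => ifB (Nat.blt b.2 128)
    (allL (fun p => Nat.beq (ap tc (ap b.1 p)) (ev b.2 (ap tc p))) rng)) (sgens.zip tE) = true := by decide +kernel

theorem chk_tzip : (sgens.zip tE).map Prod.fst = sgens := rfl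

theorem chk_tQ : allL (fun q => memN (ap tc (ev q (ap tc (ap tc 0)))) QK) QE = true := by decide +kernel

/-- Conjugation of the generators of `Q` by `c`. -/
noncomputable def yOK (c : ℕ) (l : List ℕ) : Bool :=
  allL (fun b : ℕ × ℕ => ifB (Nat.blt b.2 128) (ifB (memN (ev b.2 0) QK)
    (allL (fun p => Nat.beq (ap c (ev b.1 p)) (ev b.2 (ap c p))) rng))) (QE.zip l)

theorem chk_yQ1 : yOK y1c y1E = true := by decide +kernel

theorem chk_yQ2 : yOK y2c y2E = true := by decide +kernel

theorem chk_yzip : (QE.zip y1E).map Prod.fst = QE ∧ (QE.zip y2E).map Prod.fst = QE := ⟨rfl, rfl⟩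

theorem chk_tnot : allL (fun e => neB (ev e 0) (ap tc 0)) rg128 = true := by decide +kernel

/-- The test points for the centralizer. -/
def cpts : List ℕ := [0, 45, 2385, 2957]

theorem chk_C : allL (fun e => ifB
    (anyL (fun q => neB (ev e (ev q 0)) (ap tc (ev q (ap tc (ap tc (ev e 0)))))) QE)
    (anyL (fun q => anyL (fun p => neB (ap tc (ev e (ev q p))) (ev q (ap tc (ev e p)))) cpts) QE)) rg128 = true := by
  decide +kernel

theorem chk_orb : ifB (allL (fun x => anyL (fun e => Nat.beq (ev e 45) x) rg128) O1)
    (allL (fun e => memN (ev e 45) O1) rg128) = true := by decide +kernel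

/-- Four further images of `x`. -/
noncomputable def fiveOK (x : ℕ) : Bool :=
  anyL (fun c1 => force (ev c1 x) fun v1 => ifB (neB v1 x) <|
    anyL (fun c2 => force (ev c2 x) fun v2 => ifB (neB v2 x) <| ifB (neB v2 v1) <|
      anyL (fun c3 => force (ev c3 x) fun v3 => ifB (neB v3 x) <| ifB (neB v3 v1) <| ifB (neB v3 v2) <|
        anyL (fun c4 => force (ev c4 x) fun v4 => ifB (neB v4 x) <| ifB (neB v4 v1) <| ifB (neB v4 v2)
          (neB v4 v3)) rg128) rg128) rg128) rg128

theorem chk_five : allL (fun x => orC (memN x Om) (fiveOK x)) rng = true := by decide +kernel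

/-- The set of images of the orbit. -/
noncomputable def maskW (u : List ℕ) : ℕ :=
  setBit (setBit (setBit (setBit 0 (evalW T7 u 45)) (evalW T7 u 1874)) (evalW T7 u 2427)) (evalW T7 u 4574)

theorem chk_fam : ifB (allL (fun u => ifB (lettersOK 7 u) (Nat.beq (evalW T7 u 45) 45)) famW)
    (nodupN (famW.map maskW)) = true := by decide +kernel

theorem chk_famlen : famW.length = 255 := by decide +kernel

end Cfsg.Agent.Lib.J3Fus
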