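import Cfsg.Agent.Lib.J3Fus.Checks
import Cfsg.Agent.Lib.FusionSimple2.Rel
import Cfsg.Agent.Lib.PermComp.Spor.J3.Thm2

/-!
# The `2`-fusion system of the third Janko group is simple

Everything is proved for a subgroup `M` of the symmetric group of degree `6156` of the right order, transitive,
containing the two generators.
-/

set_option autoImplicit false
set_option maxRecDepth 100000

namespace Cfsg.Agent.Lib.J3Fus

open Cfsg Cfsg.Agent.Lib.PermComp.Core Cfsg.Agent.Lib.PermComp.Spor.J3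
open Cfsg.Agent.Lib.FusionSimple2.Codes Cfsg.Agent.Lib.FusionSimple2.Rel
open Cfsg.Agent.Lib.FusionSimple2.Abstract

local notation "ap" => app 13 8191
local notation "RR" => Rep 13 8191 (Equiv.refl (Fin 6156))
local notation "HH" => H 13 8191 (Equiv.refl (Fin 6156))
local notation "PP" => Equiv.Perm (Fin 6156)

theorem chk_QI : allL (fun e => ifB (Nat.beq (ev e (ev e 0)) 0) (neB (ev e 0) 0)) QE = true := by
  decide +kernel

theorem chk_QR : ifB (relP 64 4 2) (ifB (relP 64 4 48) (ifB (relP 64 2 48) (ifB (relP 64 4 90)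
    (relP 64 2 90)))) = true := by
  decide +kernel

theorem chk_z64 : Nat.beq (ev 64 0) (ap zc 0) = true := by decide +kernel

theorem mem_rng {x : ℕ} : x ∈ rng ↔ x < 6156 := List.mem_range

theorem rep_val {c : ℕ} {g : PP} (h : RR c g) (x : Fin 6156) : (g x : ℕ) = ap c x := by
  have := h x
  simp only [Equiv.refl_apply] at this
  exact this.symm

theorem rep_of_val {c : ℕ} {g : PP} (h : ∀ x : Fin 6156, (g x : ℕ) = ap c x) : RR c g := by
  intro x
  simp only [Equiv.refl_apply]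
  exact (h x).symm

theorem all_rng {f g : ℕ → ℕ} (h : allL (fun p => Nat.beq (f p) (g p)) rng = true) {p : ℕ}
    (hp : p < 6156) : f p = g p :=
  Nat.eq_of_beq_eq_true ((allL_eq_true _ _).1 h p (mem_rng.2 hp))

theorem rep_inv {u v : ℕ} {g : PP} (hu : RR u g)
    (h : allL (fun p => Nat.beq (ap v (ap u p)) p) rng = true) : RR v g⁻¹ := by
  apply rep_of_val
  intro x
  have h1 := all_rng h (Fin.is_lt (g⁻¹ x))
  rw [← rep_val hu, show g (g⁻¹ x) = x by simp] at h1
  exact h1.symm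

/-- The hypotheses on the group. -/
structure Model (M : Subgroup PP) : Prop where
  card : Nat.card M = 50232960
  trans : MulAction.IsPretransitive M (Fin 6156)
  gen : ∀ j < 2, ∃ e ∈ M, RR (nthN TABs j) e

open Classical in
/-- The element of a code. -/
noncomputable def dec (c : ℕ) : PP := if h : ∃ g, RR c g then Classical.choose h else 1

theorem dec_eq {c : ℕ} {g : PP} (h : RR c g) : dec c = g := by
  have hex : ∃ g, RR c g := ⟨g, h⟩
  rw [dec, dif_pos hex]
  exact (Classical.choose_spec hex).unique h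

theorem rep_dec {c : ℕ} {g : PP} (h : RR c g) : RR c (dec c) := by
  rw [dec_eq h]
  exact h

/-- The code represents an element of `M`. -/
def InM (M : Subgroup PP) (c : ℕ) : Prop := ∃ g ∈ M, RR c g

variable {M : Subgroup PP}

theorem evalW_cons (T : List ℕ) (a : ℕ) (u : List ℕ) (x : ℕ) :
    evalW T (a :: u) x = ap (nthN T a) (evalW T u x) := by
  show force _ _ = _
  rw [force_eq]
  rfl

theorem word_in {T : List ℕ} {k : ℕ} (hT : ∀ c ∈ T, InM M c) (hk : k = T.length) (u : List ℕ)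
    (hu : lettersOK k u = true) : ∃ g ∈ M, ∀ x : Fin 6156, (g x : ℕ) = evalW T u x := by
  subst hk
  induction u with
  | nil => exact ⟨1, one_mem _, fun x => rfl⟩
  | cons a u ih =>
    have hu' := (allL_eq_true _ _).1 hu
    obtain ⟨g, hg, hr⟩ := ih ((allL_eq_true _ _).2 (fun b hb => hu' b (List.mem_cons_of_mem _ hb)))
    have ha : a < T.length := Nat.le_of_ble_eq_true (hu' a List.mem_cons_self)
    obtain ⟨x, hx, hxr⟩ := hT _ (nthN_mem T a ha)
    refine ⟨x * g, mul_mem hx hg, fun y => ?_⟩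
    rw [evalW_cons, ← hr y, ← rep_val hxr]
    rfl

theorem code_in {T : List ℕ} {k : ℕ} (hT : ∀ c ∈ T, InM M c) (hk : k = T.length) {u : List ℕ}
    (hu : lettersOK k u = true) {c : ℕ}
    (h : allL (fun p => Nat.beq (ap c p) (evalW T u p)) rng = true) : InM M c := by
  obtain ⟨g, hg, hr⟩ := word_in hT hk u hu
  exact ⟨g, hg, rep_of_val fun x => by rw [hr x]; exact (all_rng h x.2).symm⟩

theorem inv_in {u v : ℕ} (hu : InM M u)
    (h : allL (fun p => Nat.beq (ap v (ap u p)) p) rng = true) : InM M v := by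
  obtain ⟨g, hg, hr⟩ := hu
  exact ⟨g⁻¹, inv_mem hg, rep_inv hr h⟩

theorem T3_in (hM : Model M) : ∀ c ∈ T3, InM M c := by
  intro c hc
  simp only [T3, List.mem_cons, List.not_mem_nil, or_false] at hc
  rcases hc with rfl | rfl | rfl
  · exact hM.gen 0 (by norm_num)
  · exact hM.gen 1 (by norm_num)
  · exact inv_in (hM.gen 1 (by norm_num)) chk_binv

theorem T7_in (hM : Model M) : ∀ c ∈ T7, InM M c := by
  have hl := (ifB_eq_true _ _).1 chk_hl
  have i0 : InM M h0c := code_in (T3_in hM) rfl hl.1 chk_h0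
  have i1 : InM M h1c := code_in (T3_in hM) rfl hl.2 chk_h1
  intro c hc
  rw [T7_eq] at hc
  rcases List.mem_append.1 hc with hc | hc
  · exact T3_in hM c hc
  · simp only [List.mem_cons, List.not_mem_nil, or_false] at hc
    rcases hc with rfl | rfl | rfl | rfl
    · exact i0
    · exact i1
    · exact inv_in i0 chk_h0i
    · exact inv_in i1 chk_h1i

theorem zc_in (hM : Model M) : InM M zc :=
  code_in (T7_in hM) rfl ((ifB_eq_true _ _).1 chk_words).1 chk_z

theorem y1_in (hM : Model M) : InM M y1c :=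
  code_in (T7_in hM) rfl ((ifB_eq_true _ _).1 ((ifB_eq_true _ _).1 chk_words).2).1 chk_y1

theorem y2_in (hM : Model M) : InM M y2c :=
  code_in (T7_in hM) rfl ((ifB_eq_true _ _).1 ((ifB_eq_true _ _).1 chk_words).2).2 chk_y2

/-- The element `z`. -/
noncomputable def Z0 : PP := dec zc
/-- The element `y₁`. -/
noncomputable def Y1 : PP := dec y1c
/-- The element `y₂`. -/
noncomputable def Y2 : PP := dec y2c
/-- The element `t`. -/
noncomputable def T0 : PP := Y1 * Y2

theorem Z0_rep (hM : Model M) : RR zc Z0 := by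
  obtain ⟨g, -, hr⟩ := zc_in hM
  exact rep_dec hr

theorem Y1_rep (hM : Model M) : RR y1c Y1 := by
  obtain ⟨g, -, hr⟩ := y1_in hM
  exact rep_dec hr

theorem Y2_rep (hM : Model M) : RR y2c Y2 := by
  obtain ⟨g, -, hr⟩ := y2_in hM
  exact rep_dec hr

theorem mem_of_rep {c : ℕ} (h : InM M c) {g : PP} (hr : RR c g) : g ∈ M := by
  obtain ⟨g', hg', hr'⟩ := h
  rwa [hr.unique hr']

theorem Z0_mem (hM : Model M) : Z0 ∈ M := mem_of_rep (zc_in hM) (Z0_rep hM)
theorem Y1_mem (hM : Model M) : Y1 ∈ M := mem_of_rep (y1_in hM) (Y1_rep hM)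
theorem Y2_mem (hM : Model M) : Y2 ∈ M := mem_of_rep (y2_in hM) (Y2_rep hM)
theorem T0_mem (hM : Model M) : T0 ∈ M := mul_mem (Y1_mem hM) (Y2_mem hM)

theorem T0_rep (hM : Model M) : RR tc T0 := by
  refine rep_of_val fun x => ?_
  have h : (T0 x : Fin 6156) = Y1 (Y2 x) := rfl
  rw [h, rep_val (Y1_rep hM), rep_val (Y2_rep hM)]
  exact (all_rng chk_t x.2).symm

theorem perm_eq_one {g : PP} (h : ∀ x : Fin 6156, (g x : ℕ) = x) : g = 1 := by
  ext x
  exact h x

theorem T0_cube (hM : Model M) : T0 * (T0 * T0) = 1 := by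
  apply perm_eq_one
  intro x
  have h : ((T0 * (T0 * T0)) x : Fin 6156) = T0 (T0 (T0 x)) := rfl
  rw [h, rep_val (T0_rep hM), rep_val (T0_rep hM), rep_val (T0_rep hM)]
  exact all_rng chk_t3 x.2

theorem T0_inv (hM : Model M) : T0⁻¹ = T0 * T0 := inv_eq_of_mul_eq_one_right (T0_cube hM)

theorem pow5 {c : ℕ} {g : PP} (hc : RR c g) (h : p5ok c = true) : g ^ 5 = 1 := by
  apply perm_eq_one
  intro x
  have e : ((g ^ 5) x : Fin 6156) = g (g (g (g (g x)))) := by
    simp [pow_succ]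
  rw [e, rep_val hc, rep_val hc, rep_val hc, rep_val hc, rep_val hc]
  exact all_rng h x.2

theorem Y1_pow (hM : Model M) : Y1 ^ 5 = 1 := pow5 (Y1_rep hM) ((ifB_eq_true _ _).1 chk_y5).1
theorem Y2_pow (hM : Model M) : Y2 ^ 5 = 1 := pow5 (Y2_rep hM) ((ifB_eq_true _ _).1 chk_y5).2

/-! ### The Sylow subgroup -/

theorem sgens_conj (hM : Model M) {a : ℕ} (ha : a ∈ sgens) : ∃ g ∈ M, RR a (g * Z0 * g⁻¹) := by
  rw [← chk_szip] at ha
  obtain ⟨p, hp, rfl⟩ := List.mem_map.1 ha
  have h := (ifB_eq_true _ _).1 ((allL_eq_true _ _).1 chk_s p hp)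
  obtain ⟨g, hg, hr⟩ := word_in (T7_in hM) rfl p.2 h.1
  refine ⟨g, hg, rep_of_val fun x => ?_⟩
  have h1 := all_rng h.2 (Fin.is_lt (g⁻¹ x))
  have e1 : evalW T7 p.2 ((g⁻¹ x : Fin 6156) : ℕ) = x := by
    rw [← hr]
    simp
  have e2 : ap zc ((g⁻¹ x : Fin 6156) : ℕ) = (Z0 (g⁻¹ x) : Fin 6156) := (rep_val (Z0_rep hM) _).symm
  rw [e1, e2, ← hr] at h1
  rw [h1]
  rfl

theorem sgens_ex (hM : Model M) : ∀ a ∈ sgens, ∃ g, RR a g := by
  intro a ha
  obtain ⟨g, -, hr⟩ := sgens_conj hM ha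
  exact ⟨_, hr⟩

/-- The Sylow subgroup. -/
noncomputable def S0 : Subgroup PP := HH sgens

theorem S0_le (hM : Model M) : S0 ≤ M := by
  apply (Subgroup.closure_le _).2
  rintro g ⟨c, hc, hg⟩
  obtain ⟨g', hg', hr⟩ := sgens_conj hM hc
  rw [hg.unique hr]
  exact mul_mem (mul_mem hg' (Z0_mem hM)) (inv_mem hg')

/-- The product of generators with exponents the bits of `e`. -/
noncomputable def elE : List ℕ → ℕ → PP
  | [], _ => 1
  | a :: as, e => (if e % 2 = 1 then dec a else 1) * elE as (e / 2)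

theorem evE_cons (a : ℕ) (as : List ℕ) (e x : ℕ) :
    evE (a :: as) e x = if e % 2 = 1 then ap a (evE as (e / 2) x) else evE as (e / 2) x := by
  have h0 : evE (a :: as) e x = Bool.rec (evE as (e / 2) x) (ap a (evE as (e / 2) x))
      (Nat.beq (e % 2) 1) := by
    have h1 : evE (a :: as) e x = force (evE as (Nat.div e 2) x)
      (fun y => Bool.rec y (ap a y) (Nat.beq (Nat.mod e 2) 1)) := rfl
    rw [h1, force_eq]
    rfl
  rw [h0]
  by_cases h : e % 2 = 1
  · rw [if_pos h, h]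
    rfl
  · have h2 : e % 2 = 0 := by omega
    rw [if_neg h, h2]
    rfl

theorem elE_val {gens : List ℕ} (hg : ∀ a ∈ gens, ∃ g, RR a g) (e : ℕ) (x : Fin 6156) :
    (elE gens e x : ℕ) = evE gens e x := by
  induction gens generalizing e with
  | nil => rfl
  | cons a as ih =>
    have hA : RR a (dec a) := by
      obtain ⟨g, hr⟩ := hg a List.mem_cons_self
      exact rep_dec hr
    have ih' := ih (fun b hb => hg b (List.mem_cons_of_mem _ hb)) (e / 2)
    rw [evE_cons, elE]
    by_cases h : e % 2 = 1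
    · rw [if_pos h, if_pos h, Equiv.Perm.mul_apply, rep_val hA, ih']
    · rw [if_neg h, if_neg h, one_mul, ih']

theorem elE_mem {gens : List ℕ} (hg : ∀ a ∈ gens, ∃ g, RR a g) (e : ℕ) : elE gens e ∈ HH gens := by
  induction gens generalizing e with
  | nil => exact one_mem _
  | cons a as ih =>
    have hA : RR a (dec a) := by
      obtain ⟨g, hr⟩ := hg a List.mem_cons_self
      exact rep_dec hr
    rw [elE]
    have hle : HH as ≤ HH (a :: as) := H_mono (fun c hc => List.mem_cons_of_mem _ hc)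
    refine mul_mem ?_ (hle (ih (fun b hb => hg b (List.mem_cons_of_mem _ hb)) _))
    split_ifs
    · exact H_of_rep List.mem_cons_self hA
    · exact one_mem _

theorem normal_form : ∀ (gens : List ℕ) (r : List (List ℕ)), (∀ a ∈ gens, ∃ g, RR a g) →
    chainC gens r = true → ∀ g ∈ HH gens, ∃ e < 2 ^ gens.length, g = elE gens e := by
  intro gens
  induction gens with
  | nil =>
    intro r _ _ g hg
    rw [H_nil, Subgroup.mem_bot] at hg
    exact ⟨0, by norm_num, hg⟩
  | cons a as ih =>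
    intro r hgens hc g hg
    cases r with
    | nil => simp [chainC] at hc
    | cons r rs =>
      simp only [chainC, ifB_eq_true] at hc
      obtain ⟨h1, h2, h3⟩ := hc
      have hg' : ∀ b ∈ as, ∃ g, RR b g := fun b hb => hgens b (List.mem_cons_of_mem _ hb)
      have nf := ih rs hg' h3
      obtain ⟨A, hA⟩ := hgens a List.mem_cons_self
      have hAinv : A⁻¹ = A := (rep_inv hA h1).unique hA
      have hAA : A * A = 1 := by
        nth_rw 1 [← hAinv]
        exact inv_mul_cancel A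
      obtain ⟨h4, h5⟩ := (ifB_eq_true _ _).1 h2
      have hlen : as.length = r.length := Nat.eq_of_beq_eq_true h4
      have hconj : ∀ (B : PP) (b : ℕ), b ∈ as → RR b B → A * B * A ∈ HH as := by
        intro B b hb hB
        have hz : (as.zip r).map Prod.fst = as := List.map_fst_zip (by omega)
        rw [← hz] at hb
        obtain ⟨p, hp, rfl⟩ := List.mem_map.1 hb
        have h6 := (ifB_eq_true _ _).1 ((allL_eq_true _ _).1 h5 p hp)
        have e : A * B * A = elE as p.2 := by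
          ext x
          have h7 := all_rng h6.2 x.2
          rw [elE_val hg', ← h7]
          have h8 : ((A * B * A) x : Fin 6156) = A (B (A x)) := rfl
          rw [h8, rep_val hA, rep_val hB, rep_val hA]
        rw [e]
        exact elE_mem hg' _
      have key : g ∈ HH as ∨ ∃ u ∈ HH as, g = A * u := by
        refine closure_induction_left_finite
          (P := fun g => g ∈ HH as ∨ ∃ u ∈ HH as, g = A * u) (Or.inl (one_mem _)) ?_ hg
        rintro s ⟨c, hc, hs⟩ h hP
        rcases List.mem_cons.1 hc with rfl | hc'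
        · obtain rfl : s = A := hs.unique hA
          rcases hP with hP | ⟨u, hu, rfl⟩
          · exact Or.inr ⟨h, hP, rfl⟩
          · left
            rw [← mul_assoc, hAA, one_mul]
            exact hu
        · have hsK : s ∈ HH as := H_of_rep hc' hs
          rcases hP with hP | ⟨u, hu, rfl⟩
          · exact Or.inl (mul_mem hsK hP)
          · right
            refine ⟨(A * s * A) * u, mul_mem (hconj s c hc' hs) hu, ?_⟩
            calc s * (A * u) = (A * A) * s * (A * u) := by rw [hAA, one_mul]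
              _ = A * ((A * s * A) * u) := by group
      have hAd : dec a = A := dec_eq hA
      rcases key with h | ⟨u, hu, rfl⟩
      · obtain ⟨e, he, rfl⟩ := nf g h
        refine ⟨2 * e, ?_, ?_⟩
        · rw [List.length_cons, pow_succ]
          omega
        · have e1 : (2 * e) % 2 = 0 := by omega
          have e2 : (2 * e) / 2 = e := by omega
          rw [elE, e1, e2]
          simp
      · obtain ⟨e, he, rfl⟩ := nf u hu
        refine ⟨2 * e + 1, ?_, ?_⟩
        · rw [List.length_cons, pow_succ]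
          omega
        · have e1 : (2 * e + 1) % 2 = 1 := by omega
          have e2 : (2 * e + 1) / 2 = e := by omega
          rw [elE, e1, e2, if_pos rfl, hAd]

/-- The element of the Sylow subgroup with the given exponent. -/
noncomputable def el (e : ℕ) : PP := elE sgens e

theorem el_val (hM : Model M) (e : ℕ) (x : Fin 6156) : (el e x : ℕ) = ev e x :=
  elE_val (sgens_ex hM) e x

theorem el_mem (hM : Model M) (e : ℕ) : el e ∈ S0 := elE_mem (sgens_ex hM) e

theorem S0_nf (hM : Model M) {g : PP} (hg : g ∈ S0) : ∃ e < 128, g = el e :=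
  normal_form sgens cT (sgens_ex hM) chk_chain g hg

/-- The regular point. -/
def p0 : Fin 6156 := ⟨0, by norm_num⟩

theorem coe_p0 : ((p0 : Fin 6156) : ℕ) = 0 := rfl

theorem key_inj {i j : ℕ} (hi : i < 128) (hj : j < 128) (h : ev i 0 = ev j 0) : i = j :=
  List.inj_on_of_nodup_map (nodupN_spec chk_key) (List.mem_range.2 hi) (List.mem_range.2 hj) h

theorem el_val0 (hM : Model M) (e : ℕ) : ((el e p0 : Fin 6156) : ℕ) = ev e 0 := el_val hM e p0

theorem eq_of_key (hM : Model M) {x y : PP} (hx : x ∈ S0) (hy : y ∈ S0)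
    (h : ((x p0 : Fin 6156) : ℕ) = (y p0 : Fin 6156)) : x = y := by
  obtain ⟨i, hi, rfl⟩ := S0_nf hM hx
  obtain ⟨j, hj, rfl⟩ := S0_nf hM hy
  rw [el_val0 hM, el_val0 hM] at h
  rw [key_inj hi hj h]

theorem card_S0 (hM : Model M) : Nat.card S0 = 2 ^ 7 := by
  have hb : Function.Bijective (fun e : Fin 128 => (⟨el e, el_mem hM e⟩ : S0)) := by
    constructor
    · intro i j hij
      have h1 : el i = el j := congrArg Subtype.val hij
      apply Fin.ext
      apply key_inj i.2 j.2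
      rw [← el_val0 hM, ← el_val0 hM, h1]
    · rintro ⟨g, hg⟩
      obtain ⟨e, he, rfl⟩ := S0_nf hM hg
      exact ⟨⟨e, he⟩, rfl⟩
  rw [← Nat.card_congr (Equiv.ofBijective _ hb), Nat.card_fin]
  norm_num

theorem Z0_S0 (hM : Model M) : Z0 ∈ S0 := H_of_rep (by simp [sgens]) (Z0_rep hM)

theorem el_64 (hM : Model M) : el 64 = Z0 := by
  apply eq_of_key hM (el_mem hM _) (Z0_S0 hM)
  rw [el_val0 hM, rep_val (Z0_rep hM)]
  exact Nat.eq_of_beq_eq_true chk_z64

theorem el_0 (hM : Model M) : el 0 = 1 := by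
  apply eq_of_key hM (el_mem hM _) (one_mem _)
  rw [el_val0 hM]
  decide +kernel

/-- Conjugation of a generated subgroup. -/
theorem conj_closure_mem {X : Set PP} {K : Subgroup PP} {g : PP} (h : ∀ x ∈ X, g * x * g⁻¹ ∈ K)
    {q : PP} (hq : q ∈ Subgroup.closure X) : g * q * g⁻¹ ∈ K := by
  induction hq using Subgroup.closure_induction with
  | mem x hx => exact h x hx
  | one => simp
  | mul a b _ _ ha hb =>
    have e : g * (a * b) * g⁻¹ = (g * a * g⁻¹) * (g * b * g⁻¹) := by group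
    rw [e]
    exact K.mul_mem ha hb
  | inv a _ ha =>
    have e : g * a⁻¹ * g⁻¹ = (g * a * g⁻¹)⁻¹ := by group
    rw [e]
    exact K.inv_mem ha

/-! ### Strong closure -/

/-- A non-trivial subgroup normalized by the Sylow subgroup contains the central involution. -/
theorem z_mem' (hM : Model M) {T : Subgroup PP} (hT : T ≤ S0) (hne : T ≠ ⊥)
    (hn : ∀ x ∈ T, ∀ r ∈ S0, r * x * r⁻¹ ∈ T) : Z0 ∈ T := by
  have : Fact (Nat.Prime 2) := ⟨Nat.prime_two⟩
  have hpg : IsPGroup 2 S0 := IsPGroup.of_card (card_S0 hM)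
  have : Group.IsNilpotent S0 := hpg.isNilpotent
  let N : Subgroup S0 := T.subgroupOf S0
  have hNn : N.Normal := by
    constructor
    intro x hx r
    rw [Subgroup.mem_subgroupOf] at hx ⊢
    exact hn _ hx _ r.2
  have hNne : N ≠ ⊥ := by
    intro h
    apply hne
    rw [eq_bot_iff]
    intro x hx
    have h1 : (⟨x, hT hx⟩ : S0) ∈ N := by
      rw [Subgroup.mem_subgroupOf]
      exact hx
    rw [h, Subgroup.mem_bot] at h1
    rw [Subgroup.mem_bot]
    exact congrArg Subtype.val h1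
  have hZ := Cfsg.Agent.Lib.SolvStruct.Fit.inf_center_ne_bot N hNne
  rw [Ne, Subgroup.eq_bot_iff_forall] at hZ
  push Not at hZ
  obtain ⟨y, ⟨hyN, hyc⟩, hy1⟩ := hZ
  have hyT : (y : PP) ∈ T := hyN
  obtain ⟨e, he, hye⟩ := S0_nf hM y.2
  have h1 := (allL_eq_true _ _).1 chk_cent e (List.mem_range.2 he)
  rw [orC_eq_true, orC_eq_true] at h1
  rcases h1 with h1 | h1 | h1
  · exfalso
    apply hy1
    apply Subtype.ext
    rw [Nat.eq_of_beq_eq_true h1] at hye
    rw [hye, el_0 hM]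
    rfl
  · rw [Nat.eq_of_beq_eq_true h1] at hye
    rw [← el_64 hM, ← hye]
    exact hyT
  · exfalso
    obtain ⟨a, ha, h2⟩ := (anyL_eq_true _ _).1 h1
    obtain ⟨A, hA⟩ := sgens_ex hM a ha
    have hAS : A ∈ S0 := H_of_rep ha hA
    have hc := (Subgroup.mem_center_iff.1 hyc) ⟨A, hAS⟩
    have hc' : A * (y : PP) = (y : PP) * A := congrArg Subtype.val hc
    apply neB_spec h2
    have h3 := DFunLike.congr_fun hc' p0
    have h4 : ((((y : PP) * A) p0 : Fin 6156) : ℕ) = ev e (ap a 0) := by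
      rw [hye]
      show ((el e (A p0) : Fin 6156) : ℕ) = _
      rw [el_val hM, rep_val hA]
      rfl
    have h5 : (((A * (y : PP)) p0 : Fin 6156) : ℕ) = ap a (ev e 0) := by
      rw [hye]
      show ((A (el e p0) : Fin 6156) : ℕ) = _
      rw [rep_val hA, el_val0 hM]
    rw [← h4, ← h5, h3]

theorem closed_S0 (hM : Model M) (T : Subgroup PP) (hT : T ≤ S0) (hne : T ≠ ⊥)
    (hcl : ∀ x ∈ T, ∀ g ∈ M, g * x * g⁻¹ ∈ S0 → g * x * g⁻¹ ∈ T) : T = S0 := by
  have hZ := z_mem' hM hT hne (fun x hx r hr => hcl x hx r (S0_le hM hr)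
      (S0.mul_mem (S0.mul_mem hr (hT hx)) (S0.inv_mem hr)))
  apply le_antisymm hT
  apply (Subgroup.closure_le _).2
  rintro g ⟨c, hc, hg⟩
  obtain ⟨g', hg', hr⟩ := sgens_conj hM hc
  have e : g = g' * Z0 * g'⁻¹ := hg.unique hr
  have hgS : g ∈ S0 := H_of_rep hc hg
  rw [e] at hgS ⊢
  exact hcl _ hZ g' hg' hgS

/-! ### The subgroup `Q` -/

/-- The subgroup `Q`. -/
noncomputable def Q0 : Subgroup PP := Subgroup.closure {g | ∃ e ∈ QE, g = el e}

theorem Q0_le (hM : Model M) : Q0 ≤ S0 := by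
  apply (Subgroup.closure_le _).2
  rintro g ⟨e, -, rfl⟩
  exact el_mem hM e

theorem el_Q0 {e : ℕ} (he : e ∈ QE) : el e ∈ Q0 := Subgroup.subset_closure ⟨e, he, rfl⟩

/-- A product of the generators of `Q`. -/
noncomputable def elQ : List ℕ → ℕ → PP
  | [], _ => 1
  | a :: l, e => (if e % 2 = 1 then el a else 1) * elQ l (e / 2)

theorem evQ_cons (a : ℕ) (l : List ℕ) (e x : ℕ) :
    evQ (a :: l) e x = if e % 2 = 1 then ev a (evQ l (e / 2) x) else evQ l (e / 2) x := by
  have h0 : evQ (a :: l) e x = Bool.rec (evQ l (e / 2) x) (ev a (evQ l (e / 2) x))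
      (Nat.beq (e % 2) 1) := by
    have h1 : evQ (a :: l) e x = force (evQ l (Nat.div e 2) x)
      (fun y => Bool.rec y (ev a y) (Nat.beq (Nat.mod e 2) 1)) := rfl
    rw [h1, force_eq]
    rfl
  rw [h0]
  by_cases h : e % 2 = 1
  · rw [if_pos h, h]
    rfl
  · have h2 : e % 2 = 0 := by omega
    rw [if_neg h, h2]
    rfl

theorem elQ_val (hM : Model M) (l : List ℕ) (e : ℕ) (x : Fin 6156) :
    (elQ l e x : ℕ) = evQ l e x := by
  induction l generalizing e with
  | nil => rfl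
  | cons a l ih =>
    rw [evQ_cons, elQ]
    by_cases h : e % 2 = 1
    · rw [if_pos h, if_pos h, Equiv.Perm.mul_apply, el_val hM, ih]
    · rw [if_neg h, if_neg h, one_mul, ih]

theorem elQ_mem {l : List ℕ} (hl : ∀ a ∈ l, a ∈ QE) (e : ℕ) : elQ l e ∈ Q0 := by
  induction l generalizing e with
  | nil => exact one_mem _
  | cons a l ih =>
    rw [elQ]
    refine mul_mem ?_ (ih (fun b hb => hl b (List.mem_cons_of_mem _ hb)) _)
    split_ifs
    · exact el_Q0 (hl a List.mem_cons_self)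
    · exact one_mem _

/-- An element of the Sylow subgroup is in `Q` as soon as its value at the regular point is. -/
theorem mem_Q0_of_key (hM : Model M) {x : PP} (hx : x ∈ S0) (h : ((x p0 : Fin 6156) : ℕ) ∈ QK) :
    x ∈ Q0 := by
  rw [chk_QK] at h
  obtain ⟨b, -, hb⟩ := List.mem_map.1 h
  have e : x = elQ QE b := by
    apply eq_of_key hM hx (Q0_le hM (elQ_mem (fun _ h => h) b))
    rw [← hb]
    exact (elQ_val hM QE b p0).symm
  rw [e]
  exact elQ_mem (fun _ h => h) b

theorem chain_inv : ∀ (gens : List ℕ) (r : List (List ℕ)), chainC gens r = true →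
    ∀ a ∈ gens, invOK a = true := by
  intro gens
  induction gens with
  | nil =>
    intro r _ a ha
    simp at ha
  | cons b as ih =>
    intro r hc a ha
    cases r with
    | nil => simp [chainC] at hc
    | cons r rs =>
      simp only [chainC, ifB_eq_true] at hc
      rcases List.mem_cons.1 ha with rfl | ha'
      · exact hc.1
      · exact ih rs hc.2.2 a ha'

theorem sgen_inv {a : ℕ} (ha : a ∈ sgens) {A : PP} (hA : RR a A) : A⁻¹ = A :=
  (rep_inv hA (chain_inv _ _ chk_chain a ha)).unique hA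

theorem S0_norm_Q0 (hM : Model M) {s : PP} (hs : s ∈ S0) : ∀ q ∈ Q0, s * q * s⁻¹ ∈ Q0 := by
  induction hs using Subgroup.closure_induction with
  | mem g hg =>
    obtain ⟨a, ha, hr⟩ := hg
    intro q hq
    refine conj_closure_mem ?_ hq
    rintro x ⟨e, he, rfl⟩
    have hgS : g ∈ S0 := H_of_rep ha hr
    apply mem_Q0_of_key hM (S0.mul_mem (S0.mul_mem hgS (el_mem hM e)) (S0.inv_mem hgS))
    have h1 := (allL_eq_true _ _).1 ((allL_eq_true _ _).1 chk_sQ a ha) e he
    rw [sgen_inv ha hr]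
    have h2 : ((g * el e * g) p0 : Fin 6156) = g (el e (g p0)) := rfl
    rw [h2, rep_val hr, el_val hM, rep_val hr]
    exact (memN_eq_true _ _).1 h1
  | one =>
    intro q hq
    simpa using hq
  | mul a b _ _ ha hb =>
    intro q hq
    have e : a * b * q * (a * b)⁻¹ = a * (b * q * b⁻¹) * a⁻¹ := by group
    rw [e]
    exact ha _ (hb q hq)
  | inv a _ ha => exact conj_inv_mem ha

/-! ### The element of order three -/

theorem T0_norm_S0 (hM : Model M) {s : PP} (hs : s ∈ S0) : T0 * s * T0⁻¹ ∈ S0 := by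
  refine conj_closure_mem ?_ hs
  rintro g ⟨a, ha, hr⟩
  rw [← chk_tzip] at ha
  obtain ⟨p, hp, rfl⟩ := List.mem_map.1 ha
  have h := (ifB_eq_true _ _).1 ((allL_eq_true _ _).1 chk_tS p hp)
  have e : T0 * g * T0⁻¹ = el p.2 := by
    ext x
    have h1 := all_rng h.2 (Fin.is_lt (T0⁻¹ x))
    rw [← rep_val (T0_rep hM), show T0 (T0⁻¹ x) = x by simp, ← el_val hM, ← rep_val hr,
      ← rep_val (T0_rep hM)] at h1
    exact h1
  rw [e]
  exact el_mem hM _

theorem T0_norm_Q0 (hM : Model M) : ∀ q ∈ Q0, T0 * q * T0⁻¹ ∈ Q0 := by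
  intro q hq
  refine conj_closure_mem ?_ hq
  rintro x ⟨e, he, rfl⟩
  apply mem_Q0_of_key hM (T0_norm_S0 hM (el_mem hM e))
  have h1 := (allL_eq_true _ _).1 chk_tQ e he
  rw [T0_inv hM]
  have h2 : ((T0 * el e * (T0 * T0)) p0 : Fin 6156) = T0 (el e (T0 (T0 p0))) := rfl
  rw [h2, rep_val (T0_rep hM), el_val hM, rep_val (T0_rep hM), rep_val (T0_rep hM)]
  exact (memN_eq_true _ _).1 h1

/-- Conjugation of the generators of `Q` by an element checked by `yOK`. -/
theorem norm_of_yOK (hM : Model M) {c : ℕ} {l : List ℕ} {C : PP} (hC : RR c C) (hy : yOK c l = true)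
    (hz : (QE.zip l).map Prod.fst = QE) : ∀ q ∈ Q0, C * q * C⁻¹ ∈ Q0 := by
  intro q hq
  refine conj_closure_mem ?_ hq
  rintro x ⟨e, he, rfl⟩
  rw [← hz] at he
  obtain ⟨p, hp, rfl⟩ := List.mem_map.1 he
  have h := (ifB_eq_true _ _).1 ((allL_eq_true _ _).1 hy p hp)
  have h' := (ifB_eq_true _ _).1 h.2
  have e1 : C * el p.1 * C⁻¹ = el p.2 := by
    ext x
    have h1 := all_rng h'.2 (Fin.is_lt (C⁻¹ x))
    rw [← rep_val hC, show C (C⁻¹ x) = x by simp, ← el_val hM, ← el_val hM, ← rep_val hC] at h1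
    exact h1
  rw [e1]
  apply mem_Q0_of_key hM (el_mem hM _)
  rw [el_val0 hM]
  exact (memN_eq_true _ _).1 h'.1

theorem Y1_norm_Q0 (hM : Model M) : ∀ q ∈ Q0, Y1 * q * Y1⁻¹ ∈ Q0 :=
  norm_of_yOK hM (Y1_rep hM) chk_yQ1 chk_yzip.1

theorem Y2_norm_Q0 (hM : Model M) : ∀ q ∈ Q0, Y2 * q * Y2⁻¹ ∈ Q0 :=
  norm_of_yOK hM (Y2_rep hM) chk_yQ2 chk_yzip.2

theorem T0_not_mem (hM : Model M) : T0 ∉ S0 := by
  intro h
  obtain ⟨e, he, hr⟩ := S0_nf hM h
  apply neB_spec ((allL_eq_true _ _).1 chk_tnot e (List.mem_range.2 he))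
  rw [← el_val0 hM, ← hr, rep_val (T0_rep hM)]
  rfl

/-! ### Weak closure -/

/-- An involution of `S0` has its exponent in `II`. -/
theorem inv_code (hM : Model M) {B : PP} (hB : B ∈ S0) (h2 : B * B = 1) (h1 : B ≠ 1) :
    ∃ c ∈ II, B = el c := by
  obtain ⟨e, he, rfl⟩ := S0_nf hM hB
  have h := (allL_eq_true _ _).1 chk_I e (List.mem_range.2 he)
  rw [orC_eq_true, orC_eq_true] at h
  rcases h with h | h | h
  · exfalso
    apply h1
    rw [Nat.eq_of_beq_eq_true h]
    exact el_0 hM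
  · exact ⟨e, (memN_eq_true _ _).1 h, rfl⟩
  · exfalso
    apply neB_spec h
    have h5 : el e (el e p0) = p0 := by
      have := DFunLike.congr_fun h2 p0
      simpa using this
    have h6 := el_val hM e (el e p0)
    rw [h5, el_val0 hM, coe_p0] at h6
    exact h6.symm

theorem rel_at (hM : Model M) {c x y : ℕ} (h : el x * el y = el c * (el y * el x)) :
    relP c x y = true := by
  have h1 := congrArg (fun g : PP => ((g p0 : Fin 6156) : ℕ)) h
  simp only [Equiv.Perm.mul_apply, el_val hM, coe_p0] at h1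
  rw [relP, h1, Nat.beq_refl]

theorem rel_of (hM : Model M) {c x y : ℕ} (h : relP c x y = true) :
    el x * el y = el c * (el y * el x) := by
  apply eq_of_key hM (S0.mul_mem (el_mem hM _) (el_mem hM _))
    (S0.mul_mem (el_mem hM _) (S0.mul_mem (el_mem hM _) (el_mem hM _)))
  simp only [Equiv.Perm.mul_apply, el_val hM, coe_p0]
  exact Nat.eq_of_beq_eq_true h

/-- The clique property. -/
theorem clique_spec {c x y u : ℕ} (hc : c ∈ II) (hx : x ∈ II) (hy : y ∈ II) (hu : u ∈ II)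
    (h1 : relP c x y = true) (h2 : relP c x u = true) (h3 : relP c y u = true) :
    ev x 0 ∈ QK ∧ ev y 0 ∈ QK ∧ ev u 0 ∈ QK := by
  have h := (allL_eq_true _ _).1 ((allL_eq_true _ _).1 ((allL_eq_true _ _).1 chk_clique c hc) x hx) y hy
  rw [orC_eq_true] at h
  rcases h with h | h
  · rw [h1] at h
    exact Bool.noConfusion h
  · have h' := (allL_eq_true _ _).1 h u hu
    rw [orC_eq_true, orC_eq_true, ifB_eq_true, ifB_eq_true] at h'
    rcases h' with h' | h' | ⟨a, b, d⟩
    · rw [h2] at h'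
      exact Bool.noConfusion h'
    · rw [h3] at h'
      exact Bool.noConfusion h'
    · exact ⟨(memN_eq_true _ _).1 a, (memN_eq_true _ _).1 b, (memN_eq_true _ _).1 d⟩

/-- Conjugates of the generators of `Q` landing in `S0`. -/
theorem conj_code (hM : Model M) {e : ℕ} (he : e ∈ QE) {g : PP} (hS : g * el e * g⁻¹ ∈ S0) :
    ∃ c ∈ II, g * el e * g⁻¹ = el c := by
  have h := (ifB_eq_true _ _).1 ((allL_eq_true _ _).1 chk_QI e he)
  have h2 : el e * el e = 1 := by
    apply eq_of_key hM (S0.mul_mem (el_mem hM _) (el_mem hM _)) (one_mem _)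
    simp only [Equiv.Perm.mul_apply, el_val hM, coe_p0]
    exact Nat.eq_of_beq_eq_true h.1
  have h1 : el e ≠ 1 := by
    intro h3
    apply neB_spec h.2
    rw [← el_val0 hM, h3]
    rfl
  refine inv_code hM hS ?_ ?_
  · have e1 : g * el e * g⁻¹ * (g * el e * g⁻¹) = g * (el e * el e) * g⁻¹ := by group
    rw [e1, h2]
    simp
  · intro e2
    apply h1
    have h3 : el e = g⁻¹ * (g * el e * g⁻¹) * g := by group
    rw [h3, e2]
    simp

theorem weak_Q0 (hM : Model M) {g : PP} (hS : ∀ q ∈ Q0, g * q * g⁻¹ ∈ S0) :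
    ∀ q ∈ Q0, g * q * g⁻¹ ∈ Q0 := by
  have hr := chk_QR
  simp only [ifB_eq_true] at hr
  obtain ⟨e12, e13, e23, e14, e24⟩ := hr
  have conv : ∀ {a b : ℕ}, relP 64 a b = true →
      (g * el a * g⁻¹) * (g * el b * g⁻¹) = (g * el 64 * g⁻¹) * ((g * el b * g⁻¹) * (g * el a * g⁻¹)) := by
    intro a b h
    have h3 := rel_of hM h
    have e : (g * el a * g⁻¹) * (g * el b * g⁻¹) = g * (el a * el b) * g⁻¹ := by group
    rw [e, h3]
    group
  have m1 : (4 : ℕ) ∈ QE := by simp [QE]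
  have m2 : (2 : ℕ) ∈ QE := by simp [QE]
  have m3 : (48 : ℕ) ∈ QE := by simp [QE]
  have m4 : (90 : ℕ) ∈ QE := by simp [QE]
  have mz : (64 : ℕ) ∈ QE := by simp [QE]
  obtain ⟨c1, hc1, b1⟩ := conj_code hM m1 (hS _ (el_Q0 m1))
  obtain ⟨c2, hc2, b2⟩ := conj_code hM m2 (hS _ (el_Q0 m2))
  obtain ⟨c3, hc3, b3⟩ := conj_code hM m3 (hS _ (el_Q0 m3))
  obtain ⟨c4, hc4, b4⟩ := conj_code hM m4 (hS _ (el_Q0 m4))
  obtain ⟨cz, hcz, bz⟩ := conj_code hM mz (hS _ (el_Q0 mz))
  have r12 := conv e12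
  have r13 := conv e13
  have r23 := conv e23
  have r14 := conv e14
  have r24 := conv e24
  rw [b1, b2, bz] at r12
  rw [b1, b3, bz] at r13
  rw [b2, b3, bz] at r23
  rw [b1, b4, bz] at r14
  rw [b2, b4, bz] at r24
  obtain ⟨q1, q2, q3⟩ := clique_spec hcz hc1 hc2 hc3 (rel_at hM r12) (rel_at hM r13) (rel_at hM r23)
  obtain ⟨-, -, q4⟩ := clique_spec hcz hc1 hc2 hc4 (rel_at hM r12) (rel_at hM r14) (rel_at hM r24)
  have toQ : ∀ {c : ℕ}, ev c 0 ∈ QK → el c ∈ Q0 := by
    intro c hc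
    apply mem_Q0_of_key hM (el_mem hM c)
    rw [el_val0 hM]
    exact hc
  have i1 := toQ q1
  have i2 := toQ q2
  have i3 := toQ q3
  have i4 := toQ q4
  have iz : el cz ∈ Q0 := by
    have h4 : el cz = (el c1 * el c2) * (el c2 * el c1)⁻¹ := by
      rw [r12]
      group
    rw [h4]
    exact Q0.mul_mem (Q0.mul_mem i1 i2) (Q0.inv_mem (Q0.mul_mem i2 i1))
  intro q hq
  refine conj_closure_mem ?_ hq
  rintro x ⟨e, he, rfl⟩
  simp only [QE, List.mem_cons, List.not_mem_nil, or_false] at he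
  rcases he with rfl | rfl | rfl | rfl | rfl
  · rwa [b4]
  · rwa [b3]
  · rwa [b2]
  · rwa [b1]
  · rwa [bz]

/-! ### The normalizer of the Sylow subgroup -/

/-- `g` normalizes `S0`. -/
def NormS (g : PP) : Prop := ∀ s ∈ S0, g * s * g⁻¹ ∈ S0

theorem NormS.inv {g : PP} (h : NormS g) : NormS g⁻¹ := conj_inv_mem h

/-- The base point. -/
def p45 : Fin 6156 := ⟨45, by norm_num⟩

theorem coe_p45 : ((p45 : Fin 6156) : ℕ) = 45 := rfl

theorem orbit_S0 (hM : Model M) {s : PP} (hs : s ∈ S0) : ((s p45 : Fin 6156) : ℕ) ∈ O1 := by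
  obtain ⟨e, he, rfl⟩ := S0_nf hM hs
  have h := (ifB_eq_true _ _).1 chk_orb
  rw [el_val hM]
  exact (memN_eq_true _ _).1 ((allL_eq_true _ _).1 h.2 e (List.mem_range.2 he))

theorem orbit_S0' (hM : Model M) {x : ℕ} (hx : x ∈ O1) : ∃ s ∈ S0, ((s p45 : Fin 6156) : ℕ) = x := by
  have h := (ifB_eq_true _ _).1 chk_orb
  obtain ⟨e, he, h1⟩ := (anyL_eq_true _ _).1 ((allL_eq_true _ _).1 h.1 x hx)
  refine ⟨el e, el_mem hM e, ?_⟩
  rw [el_val hM]
  exact Nat.eq_of_beq_eq_true h1

/-- The elements of the group normalizing the Sylow subgroup permute the orbits of length four. -/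
theorem NormS.mem_Om (hM : Model M) {g : PP} (h : NormS g) : ((g p45 : Fin 6156) : ℕ) ∈ Om := by
  set x : Fin 6156 := g p45 with hxdef
  have h1 := (allL_eq_true _ _).1 chk_five x (mem_rng.2 (Fin.is_lt _))
  rw [orC_eq_true] at h1
  rcases h1 with h1 | h1
  · exact (memN_eq_true _ _).1 h1
  · exfalso
    have image : ∀ e ∈ rg128, ∃ y ∈ O1.map (fun y => if hy : y < 6156 then ((g ⟨y, hy⟩ : Fin 6156) : ℕ) else 0),
        ev e x = y := by
      intro e _
      have hs := el_mem hM e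
      have h2 := h.inv _ hs
      have h3 : g⁻¹ * el e * g⁻¹⁻¹ = g⁻¹ * el e * g := by simp
      rw [h3] at h2
      have h4 := orbit_S0 hM h2
      refine ⟨_, List.mem_map.2 ⟨_, h4, rfl⟩, ?_⟩
      rw [dif_pos (Fin.is_lt _), ← el_val hM]
      have h5 : el e x = g ((g⁻¹ * el e * g) p45) := by simp [hxdef]
      rw [h5]
    have hx0 : ∃ y ∈ O1.map (fun y => if hy : y < 6156 then ((g ⟨y, hy⟩ : Fin 6156) : ℕ) else 0),
        (x : ℕ) = y := by
      refine ⟨_, List.mem_map.2 ⟨45, by simp [O1], rfl⟩, ?_⟩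
      rw [dif_pos (by norm_num)]
      rfl
    obtain ⟨c1, hc1, h2⟩ := (anyL_eq_true _ _).1 h1
    simp only [force_eq, ifB_eq_true] at h2
    obtain ⟨n1, h3⟩ := h2
    obtain ⟨c2, hc2, h4⟩ := (anyL_eq_true _ _).1 h3
    simp only [ifB_eq_true] at h4
    obtain ⟨n2, n3, h5⟩ := h4
    obtain ⟨c3, hc3, h6⟩ := (anyL_eq_true _ _).1 h5
    simp only [ifB_eq_true] at h6
    obtain ⟨n4, n5, n6, h7⟩ := h6
    obtain ⟨c4, hc4, h8⟩ := (anyL_eq_true _ _).1 h7
    simp only [ifB_eq_true] at h8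
    obtain ⟨n7, n8, n9, n10⟩ := h8
    have hnd : ([(x : ℕ), ev c1 x, ev c2 x, ev c3 x, ev c4 x]).Nodup := by
      have a1 := neB_spec n1
      have a2 := neB_spec n2
      have a3 := neB_spec n3
      have a4 := neB_spec n4
      have a5 := neB_spec n5
      have a6 := neB_spec n6
      have a7 := neB_spec n7
      have a8 := neB_spec n8
      have a9 := neB_spec n9
      have a10 := neB_spec n10
      simp only [List.nodup_cons, List.mem_cons, List.not_mem_nil, or_false, not_or,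
        List.nodup_nil, and_true, not_false_eq_true]
      exact ⟨⟨a1.symm, a2.symm, a4.symm, a7.symm⟩, ⟨a3.symm, a5.symm, a8.symm⟩, ⟨a6.symm, a9.symm⟩, a10.symm⟩
    have hsub : [(x : ℕ), ev c1 x, ev c2 x, ev c3 x, ev c4 x] ⊆
        O1.map (fun y => if hy : y < 6156 then ((g ⟨y, hy⟩ : Fin 6156) : ℕ) else 0) := by
      intro v hv
      simp only [List.mem_cons, List.not_mem_nil, or_false] at hv
      rcases hv with rfl | rfl | rfl | rfl | rfl
      · obtain ⟨y, hy, e⟩ := hx0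
        rwa [e]
      · obtain ⟨y, hy, e⟩ := image c1 hc1
        rwa [e]
      · obtain ⟨y, hy, e⟩ := image c2 hc2
        rwa [e]
      · obtain ⟨y, hy, e⟩ := image c3 hc3
        rwa [e]
      · obtain ⟨y, hy, e⟩ := image c4 hc4
        rwa [e]
    have hle := (List.subperm_of_subset hnd hsub).length_le
    simp [O1] at hle

/-- The stabilizer of the base point in the normalizer preserves the orbit. -/
theorem NP_O1 (hM : Model M) {u : PP} (h : NormS u) (hf : u p45 = p45) {x : Fin 6156}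
    (hx : (x : ℕ) ∈ O1) : ((u x : Fin 6156) : ℕ) ∈ O1 := by
  obtain ⟨s, hs, hv⟩ := orbit_S0' hM hx
  have e : x = s p45 := Fin.ext hv.symm
  have h1 := orbit_S0 hM (h s hs)
  have h2 : ((u * s * u⁻¹) p45 : Fin 6156) = u (s (u⁻¹ p45)) := rfl
  have h3 : u⁻¹ p45 = p45 := by
    rw [Equiv.Perm.inv_eq_iff_eq]
    exact hf.symm
  rw [h2, h3, ← e] at h1
  exact h1

theorem bit_zero (y : ℕ) : bit 0 y = false := by
  rw [bit_eq_testBit]
  exact Nat.zero_testBit y

theorem mask_iff {w : List ℕ} {m : PP} (hv : ∀ x : Fin 6156, (m x : ℕ) = evalW T7 w x) (y : ℕ) :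
    bit (maskW w) y = true ↔ ∃ x : Fin 6156, (x : ℕ) ∈ O1 ∧ y = m x := by
  have h45 := hv ⟨45, by norm_num⟩
  have h1874 := hv ⟨1874, by norm_num⟩
  have h2427 := hv ⟨2427, by norm_num⟩
  have h4574 := hv ⟨4574, by norm_num⟩
  simp only at h45 h1874 h2427 h4574
  rw [maskW, bit_setBit, bit_setBit, bit_setBit, bit_setBit, bit_zero, ← h45, ← h1874, ← h2427, ← h4574]
  constructor
  · rintro ((((h | h) | h) | h) | h)
    · exact absurd h (by simp)
    · exact ⟨_, by simp [O1], h⟩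
    · exact ⟨_, by simp [O1], h⟩
    · exact ⟨_, by simp [O1], h⟩
    · exact ⟨_, by simp [O1], h⟩
  · rintro ⟨x, hx, rfl⟩
    simp only [O1, List.mem_cons, List.not_mem_nil, or_false] at hx
    have hx' : x = ⟨45, by norm_num⟩ ∨ x = ⟨1874, by norm_num⟩ ∨ x = ⟨2427, by norm_num⟩ ∨
        x = ⟨4574, by norm_num⟩ := by
      rcases hx with h | h | h | h
      · exact Or.inl (Fin.ext h)
      · exact Or.inr (Or.inl (Fin.ext h))
      · exact Or.inr (Or.inr (Or.inl (Fin.ext h)))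
      · exact Or.inr (Or.inr (Or.inr (Fin.ext h)))
    rcases hx' with rfl | rfl | rfl | rfl
    · exact Or.inl (Or.inl (Or.inl (Or.inr rfl)))
    · exact Or.inl (Or.inl (Or.inr rfl))
    · exact Or.inl (Or.inr rfl)
    · exact Or.inr rfl

theorem mask_eq {w w' : List ℕ} {m m' : PP} (hv : ∀ x : Fin 6156, (m x : ℕ) = evalW T7 w x)
    (hv' : ∀ x : Fin 6156, (m' x : ℕ) = evalW T7 w' x)
    (h1 : ∀ x : Fin 6156, (x : ℕ) ∈ O1 → ∃ x' : Fin 6156, (x' : ℕ) ∈ O1 ∧ m x = m' x')
    (h2 : ∀ x : Fin 6156, (x : ℕ) ∈ O1 → ∃ x' : Fin 6156, (x' : ℕ) ∈ O1 ∧ m' x = m x') :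
    maskW w = maskW w' := by
  apply Nat.eq_of_testBit_eq
  intro y
  rw [← bit_eq_testBit, ← bit_eq_testBit, Bool.eq_iff_iff, mask_iff hv, mask_iff hv']
  constructor
  · rintro ⟨x, hx, rfl⟩
    obtain ⟨x', hx', e⟩ := h1 x hx
    exact ⟨x', hx', by rw [e]⟩
  · rintro ⟨x, hx, rfl⟩
    obtain ⟨x', hx', e⟩ := h2 x hx
    exact ⟨x', hx', by rw [e]⟩

/-- The normalizer as a subgroup of the group. -/
noncomputable def NS (M : Subgroup PP) : Subgroup M where
  carrier := {g | NormS (g : PP)}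
  one_mem' := by
    intro s hs
    simpa using hs
  mul_mem' := by
    intro a b ha hb s hs
    have := ha _ (hb s hs)
    have e : ((a * b : M) : PP) * s * ((a * b : M) : PP)⁻¹ =
        (a : PP) * ((b : PP) * s * (b : PP)⁻¹) * (a : PP)⁻¹ := by
      simp only [Subgroup.coe_mul]
      group
    rw [e]
    exact this
  inv_mem' := by
    intro a ha
    exact NormS.inv ha

/-- The stabilizer of the base point in the normalizer. -/
noncomputable def NP (M : Subgroup PP) : Subgroup M where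
  carrier := {g | NormS (g : PP) ∧ (g : PP) p45 = p45}
  one_mem' := ⟨(NS M).one_mem, rfl⟩
  mul_mem' := by
    rintro a b ⟨ha, ha'⟩ ⟨hb, hb'⟩
    refine ⟨(NS M).mul_mem ha hb, ?_⟩
    show (a : PP) ((b : PP) p45) = p45
    rw [hb', ha']
  inv_mem' := by
    rintro a ⟨ha, ha'⟩
    refine ⟨(NS M).inv_mem ha, ?_⟩
    show (a : PP)⁻¹ p45 = p45
    rw [Equiv.Perm.inv_eq_iff_eq]
    exact ha'.symm

theorem card_NP_le (hM : Model M) : Nat.card (NP M) ≤ 32 := by
  have hT := hM.trans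
  have hgp : ∀ x : Fin 6156, ∃ g : M, (g : PP) p45 = x := fun x => MulAction.exists_smul_eq M p45 x
  choose gp hgpe using hgp
  have hlen : ∀ i : Fin 255, i.1 < famW.length := fun i => by
    rw [chk_famlen]
    exact i.2
  have hfam := (ifB_eq_true _ _).1 chk_fam
  have hw : ∀ i : Fin 255, ∃ g ∈ M, ∀ x : Fin 6156, (g x : ℕ) = evalW T7 (famW[i.1]'(hlen i)) x := by
    intro i
    have h1 := (ifB_eq_true _ _).1 ((allL_eq_true _ _).1 hfam.1 _ (List.getElem_mem (hlen i)))
    exact word_in (T7_in hM) rfl _ h1.1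
  choose m hm hmv using hw
  have hfix : ∀ i : Fin 255, m i p45 = p45 := by
    intro i
    have h1 := (ifB_eq_true _ _).1 ((allL_eq_true _ _).1 hfam.1 _ (List.getElem_mem (hlen i)))
    apply Fin.ext
    rw [hmv, coe_p45]
    exact Nat.eq_of_beq_eq_true h1.2
  let f : Fin 6156 × Fin 255 → M := fun i => gp i.1 * ⟨m i.2, hm i.2⟩
  have hsep : ∀ i j, (f i)⁻¹ * f j ∈ NP M → i = j := by
    rintro ⟨p, k⟩ ⟨q, l⟩ ⟨hu, hu'⟩
    have hu2 : ((gp p : PP) * m k)⁻¹ * ((gp q : PP) * m l) = (((f (p, k))⁻¹ * f (q, l) : M) : PP) := by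
      simp [f]
    rw [← hu2] at hu hu'
    have hpq : q = p := by
      have h1 : ((gp q : PP) * m l) p45 = ((gp p : PP) * m k) p45 := by
        have h2 := congrArg ((gp p : PP) * m k) hu'
        simpa using h2
      simp only [Equiv.Perm.mul_apply, hfix, hgpe] at h1
      exact h1
    subst hpq
    have e : ((gp q : PP) * m k)⁻¹ * ((gp q : PP) * m l) = (m k)⁻¹ * m l := by group
    rw [e] at hu hu'
    have hkl : k = l := by
      have hmask : maskW (famW[k.1]'(hlen k)) = maskW (famW[l.1]'(hlen l)) := by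
        apply mask_eq (hmv k) (hmv l)
        · intro x hx
          have h1 := NP_O1 hM hu.inv (by
            rw [Equiv.Perm.inv_eq_iff_eq]
            exact hu'.symm) hx
          refine ⟨_, h1, ?_⟩
          simp
        · intro x hx
          have h1 := NP_O1 hM hu hu' hx
          refine ⟨_, h1, ?_⟩
          simp
      have h3 := (List.inj_on_of_nodup_map (nodupN_spec hfam.2) (List.getElem_mem (hlen k))
        (List.getElem_mem (hlen l)) hmask)
      have h4 := (List.Nodup.getElem_inj_iff (List.Nodup.of_map _ (nodupN_spec hfam.2))).1 h3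
      exact Fin.ext h4
    rw [hkl]
  have h1 := card_le_of_sep (NP M) f hsep
  rw [Nat.card_prod, Nat.card_fin, Nat.card_fin, hM.card] at h1
  omega

theorem card_NS_le (hM : Model M) : Nat.card (NS M) ≤ 384 := by
  classical
  have hmem : ∀ a : NS M, ((((a : M) : PP) p45 : Fin 6156) : ℕ) ∈ Om := fun a => NormS.mem_Om hM a.2
  have hrep : ∀ x : Fin 6156, ∃ c : NS M, (∃ a : NS M, ((a : M) : PP) p45 = x) → ((c : M) : PP) p45 = x := by
    intro x
    by_cases h : ∃ a : NS M, ((a : M) : PP) p45 = x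
    · obtain ⟨a, ha⟩ := h
      exact ⟨a, fun _ => ha⟩
    · exact ⟨1, fun h' => absurd h' h⟩
  choose c hc using hrep
  let φ : NS M → {n // n ∈ Om.toFinset} × NP M := fun a =>
    (⟨_, List.mem_toFinset.2 (hmem a)⟩, ⟨(c (((a : M) : PP) p45) : M)⁻¹ * (a : M), by
      refine ⟨(NS M).mul_mem ((NS M).inv_mem (c _).2) a.2, ?_⟩
      have h1 := hc (((a : M) : PP) p45) ⟨a, rfl⟩
      show ((c (((a : M) : PP) p45) : M) : PP)⁻¹ (((a : M) : PP) p45) = p45
      rw [Equiv.Perm.inv_eq_iff_eq]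
      exact h1.symm⟩)
  have hφ : Function.Injective φ := by
    intro a b hab
    have h1 : (((a : M) : PP) p45 : ℕ) = ((b : M) : PP) p45 := congrArg (fun z => (z.1 : ℕ)) hab
    have h1' : ((a : M) : PP) p45 = ((b : M) : PP) p45 := Fin.ext h1
    have h2 : (c (((a : M) : PP) p45) : M)⁻¹ * (a : M) = (c (((b : M) : PP) p45) : M)⁻¹ * (b : M) :=
      congrArg (fun z => ((z.2 : NP M) : M)) hab
    rw [h1'] at h2
    exact Subtype.ext (mul_left_cancel h2)
  have h1 := Nat.card_le_card_of_injective φ hφ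
  have h0 : Nat.card Om.toFinset = Om.toFinset.card := by
    rw [Nat.card_eq_fintype_card, Fintype.card_coe]
  rw [Nat.card_prod, h0] at h1
  have h2 : Om.toFinset.card ≤ 12 := List.toFinset_card_le Om
  have h3 := card_NP_le hM
  calc Nat.card (NS M) ≤ Om.toFinset.card * Nat.card (NP M) := h1
    _ ≤ 12 * 32 := Nat.mul_le_mul h2 h3
    _ = 384 := by norm_num

theorem pow_T0_norm (hM : Model M) (i : ℕ) : NormS (T0 ^ i) :=
  conj_pow_mem (fun _ hs => T0_norm_S0 hM hs) i

theorem T0_four (hM : Model M) : T0 ^ 4 = T0 := by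
  have : T0 ^ 4 = T0 * (T0 * (T0 * T0)) := by simp [pow_succ, mul_assoc]
  rw [this, T0_cube hM, mul_one]

theorem T0_sq_not_mem (hM : Model M) : T0 ^ 2 ∉ S0 := by
  intro h
  have h1 : (T0 ^ 2) ^ 2 ∈ S0 := S0.pow_mem h 2
  rw [← pow_mul, show 2 * 2 = 4 from rfl, T0_four hM] at h1
  exact T0_not_mem hM h1

theorem exists_of_norm (hM : Model M) {g : PP} (hg : g ∈ M) (hN : NormS g) :
    ∃ i : ℕ, i < 3 ∧ ∃ s ∈ S0, g = T0 ^ i * s := by
  let f : Fin 3 × S0 → NS M := fun i => ⟨⟨T0 ^ (i.1 : ℕ) * (i.2 : PP),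
      mul_mem (pow_mem (T0_mem hM) _) (S0_le hM i.2.2)⟩, by
    intro s hs
    have h1 := pow_T0_norm hM (i.1 : ℕ) _ (S0.mul_mem (S0.mul_mem i.2.2 hs) (S0.inv_mem i.2.2))
    have e : (T0 ^ (i.1 : ℕ) * (i.2 : PP)) * s * (T0 ^ (i.1 : ℕ) * (i.2 : PP))⁻¹ =
        T0 ^ (i.1 : ℕ) * ((i.2 : PP) * s * (i.2 : PP)⁻¹) * (T0 ^ (i.1 : ℕ))⁻¹ := by group
    show (T0 ^ (i.1 : ℕ) * (i.2 : PP)) * s * (T0 ^ (i.1 : ℕ) * (i.2 : PP))⁻¹ ∈ S0
    rw [e]
    exact h1⟩
  have hf : Function.Injective f := by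
    rintro ⟨i, s⟩ ⟨j, s'⟩ h
    have h1 : T0 ^ (i : ℕ) * (s : PP) = T0 ^ (j : ℕ) * (s' : PP) :=
      congrArg (fun x : NS M => ((x : M) : PP)) h
    have key : ∀ a b : ℕ, b < 3 → a < b → ∀ u v : S0, T0 ^ a * (u : PP) ≠ T0 ^ b * (v : PP) := by
      intro a b hb hab u v e
      have h2 : T0 ^ (b - a) ∈ S0 := by
        have h3 : T0 ^ (b - a) = (u : PP) * (v : PP)⁻¹ := by
          have h4 : T0 ^ b = T0 ^ a * T0 ^ (b - a) := by
            rw [← pow_add]
            congr 1
            omega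
          rw [h4, mul_assoc] at e
          have h5 := mul_left_cancel e
          rw [h5]
          group
        rw [h3]
        exact S0.mul_mem u.2 (S0.inv_mem v.2)
      have h6 : b - a = 1 ∨ b - a = 2 := by omega
      rcases h6 with h6 | h6
      · rw [h6, pow_one] at h2
        exact T0_not_mem hM h2
      · rw [h6] at h2
        exact T0_sq_not_mem hM h2
    have hij : (i : ℕ) = j := by
      by_contra hne
      rcases Nat.lt_or_gt_of_ne hne with h2 | h2
      · exact key _ _ j.2 h2 s s' h1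
      · exact key _ _ i.2 h2 s' s h1.symm
    have hij' : i = j := Fin.ext hij
    subst hij'
    have h3 : (s : PP) = s' := mul_left_cancel h1
    rw [Subtype.ext h3]
  have hb := hf.bijective_of_nat_card_le (by
    rw [Nat.card_prod, Nat.card_fin, card_S0 hM]
    exact (card_NS_le hM).trans (by norm_num))
  obtain ⟨⟨i, s⟩, hs⟩ := hb.2 ⟨⟨g, hg⟩, hN⟩
  refine ⟨i, i.2, s, s.2, ?_⟩
  exact (congrArg (fun x : NS M => ((x : M) : PP)) hs).symm

theorem conj_T0_unique (hM : Model M) {g : PP} (hg : g ∈ M) (hN : NormS g)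
    (hq : ∀ q ∈ Q0, g * q * g⁻¹ = T0 * q * T0⁻¹) : ∃ s ∈ S0, g = T0 * s := by
  obtain ⟨i, hi, s, hs, rfl⟩ := exists_of_norm hM hg hN
  obtain ⟨e, he, rfl⟩ := S0_nf hM hs
  have h2 := (allL_eq_true _ _).1 chk_C e (List.mem_range.2 he)
  rw [ifB_eq_true] at h2
  obtain ⟨h3, h4⟩ := h2
  have hi3 : i = 0 ∨ i = 1 ∨ i = 2 := by omega
  rcases hi3 with rfl | rfl | rfl
  · exfalso
    obtain ⟨q, hq', h5⟩ := (anyL_eq_true _ _).1 h3
    apply neB_spec h5
    have h6 := hq _ (el_Q0 hq')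
    rw [pow_zero, one_mul, T0_inv hM] at h6
    have h7 : el e * el q = T0 * el q * (T0 * T0) * el e := by
      rw [← h6]
      group
    have h8 := congrArg (fun g : PP => ((g p0 : Fin 6156) : ℕ)) h7
    simp only [Equiv.Perm.mul_apply, el_val hM, rep_val (T0_rep hM), coe_p0] at h8
    exact h8
  · exact ⟨el e, hs, by rw [pow_one]⟩
  · exfalso
    obtain ⟨q, hq', h5⟩ := (anyL_eq_true _ _).1 h4
    obtain ⟨p, hp, h6⟩ := (anyL_eq_true _ _).1 h5
    apply neB_spec h6
    have hplt : p < 6156 := by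
      simp only [cpts, List.mem_cons, List.not_mem_nil, or_false] at hp
      omega
    have h7 := hq _ (el_Q0 hq')
    have h8 : (T0 * el e) * el q = el q * (T0 * el e) := by
      have h9 : T0 ^ 2 * el e * el q * (T0 ^ 2 * el e)⁻¹ = T0 * ((T0 * el e) * el q * (T0 * el e)⁻¹) * T0⁻¹ := by
        rw [pow_two]
        group
      rw [h9] at h7
      have h10 := mul_left_cancel (mul_right_cancel h7)
      rw [mul_inv_eq_iff_eq_mul] at h10
      exact h10
    have h11 := congrArg (fun g : PP => ((g ⟨p, hplt⟩ : Fin 6156) : ℕ)) h8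
    simp only [Equiv.Perm.mul_apply, el_val hM, rep_val (T0_rep hM)] at h11
    exact h11

/-- The data of the criterion for `J₃`. -/
theorem relData (hM : Model M) : RelData M S0 Q0 T0 Y1 Y2 where
  hne := by
    intro h
    have := card_S0 hM
    rw [h, Subgroup.card_bot] at this
    omega
  hSM := S0_le hM
  hT := closed_S0 hM
  hQS := Q0_le hM
  hSQ := fun s hs => S0_norm_Q0 hM hs
  hQw := fun g _ hS => weak_Q0 hM hS
  htM := T0_mem hM
  htS := fun s hs => T0_norm_S0 hM hs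
  htQ := T0_norm_Q0 hM
  hN := fun g hg hn => exists_of_norm hM hg hn
  hC := fun g hg hn hq => conj_T0_unique hM hg hn hq
  hy₁M := Y1_mem hM
  hy₂M := Y2_mem hM
  hy₁ := Y1_pow hM
  hy₂ := Y2_pow hM
  hy₁Q := Y1_norm_Q0 hM
  hy₂Q := Y2_norm_Q0 hM
  ht := rfl

/-- The `2`-fusion system of a group isomorphic to `J₃` is simple. -/
theorem simple_J3 {G : Type*} [Group G] [Finite G] (hG : Cfsg.Spor.IsoJ3 G) (S : Sylow 2 G) :
    (groupFusionSystem (S : Subgroup G)).IsSimple 2 := by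
  obtain ⟨F, _, _, ω, hF, hω, ⟨f⟩⟩ := hG
  obtain ⟨H', hc, -, htr, ⟨e⟩, hH⟩ := main2 (two_eq_zero_of_card hF) hω
  have hM : Model H' := ⟨hc, htr, fun j hj => by
    obtain ⟨g, hg, hr⟩ := hH j hj
    exact ⟨g, hg, fun a => by
      simp only [Equiv.refl_apply]
      exact hr a a.2⟩⟩
  exact simple_of_rel (relData hM) (k := 7) (m := 392445) (card_S0 hM) (by rw [hc]; norm_num)
    (by decide) (f.trans e) S

end Cfsg.Agent.Lib.J3Fus
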